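import Mathlib
import Cfsg.Prelude.Def_Characters
import Cfsg.Agent.Lib.Helper3.FrobInd
import Cfsg.Agent.Lib.Helper80.PrimeCodeg
import Cfsg.Agent.Lib.Helper14.DG33.Defs

/-!
# DG33 [SOLV]: a solvable group of order 6048 with an irreducible character of degree 42

`H = AGL₁(R) = R ⋊ Rˣ` for `R = 𝔽₈ × ℤ/18`; the character is induced from an additive
character of `R` with trivial stabiliser in `Rˣ`.
-/

set_option autoImplicit false

namespace Cfsg.Agent.Lib.Helper4.DG33

universe u

/-- A linear character of a normal subgroup whose inertia group is the subgroup itself induces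
to an irreducible character of degree the index. -/
theorem irr_ind_of_hom {G : Type u} [Group G] [Fintype G] (N : Subgroup G) [N.Normal]
    (f : N →* ℂˣ)
    (hI : ∀ x : G, (∀ n : N, ∀ h : x⁻¹ * (n : G) * x ∈ N, f ⟨x⁻¹ * n * x, h⟩ = f n) → x ∈ N) :
    Cfsg.IsIrrCharacter G (Cfsg.indFun N (fun n => ((f n : ℂˣ) : ℂ))) ∧
      Cfsg.indFun N (fun n => ((f n : ℂˣ) : ℂ)) 1 = (N.index : ℂ) := by
  constructor
  · apply Cfsg.Agent.Lib.Helper3.isIrrCharacter_indFun_of_inertia N
      (Cfsg.Agent.Lib.Helper80.isIrrCharacter_of_hom f)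
    intro x hx
    apply hI x
    intro n h
    have h1 := congrFun hx n
    rw [Cfsg.Agent.Lib.Helper75.conjChar_val N _ x n h] at h1
    exact Units.ext h1
  · rw [Cfsg.Agent.Lib.Helper75.indFun_one]
    simp

section AGL

variable (R : Type) [CommRing R]

/-- The action of the units of `R` on the additive group of `R` (written multiplicatively). -/
def aglPhi : Rˣ →* MulAut (Multiplicative R) where
  toFun u :=
    { toFun := fun m => Multiplicative.ofAdd ((u : R) * Multiplicative.toAdd m)
      invFun := fun m => Multiplicative.ofAdd (((u⁻¹ : Rˣ) : R) * Multiplicative.toAdd m)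
      left_inv := fun m => by
        apply Multiplicative.toAdd.injective
        simp
      right_inv := fun m => by
        apply Multiplicative.toAdd.injective
        simp
      map_mul' := fun a b => by
        apply Multiplicative.toAdd.injective
        simp [mul_add] }
  map_one' := by
    ext m
    apply Multiplicative.toAdd.injective
    simp
  map_mul' u v := by
    ext m
    apply Multiplicative.toAdd.injective
    simp [mul_assoc]

theorem aglPhi_apply (u : Rˣ) (m : Multiplicative R) :
    aglPhi R u m = Multiplicative.ofAdd ((u : R) * Multiplicative.toAdd m) := rfl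

/-- The group `AGL₁(R) = R ⋊ Rˣ`. -/
abbrev AGL1 : Type := Multiplicative R ⋊[aglPhi R] Rˣ

variable {R}

/-- The translation subgroup. -/
abbrev aglN : Subgroup (AGL1 R) := (SemidirectProduct.rightHom : AGL1 R →* Rˣ).ker

theorem mem_aglN (x : AGL1 R) : x ∈ aglN (R := R) ↔ x.right = 1 := by
  rw [MonoidHom.mem_ker]
  rfl

/-- The linear character of the translation subgroup given by `ν`. -/
def aglChar (ν : Multiplicative R →* ℂˣ) : aglN (R := R) →* ℂˣ where
  toFun n := ν n.1.left
  map_one' := by
    show ν (1 : AGL1 R).left = 1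
    rw [SemidirectProduct.one_left, map_one]
  map_mul' a b := by
    show ν ((a : AGL1 R) * (b : AGL1 R)).left = ν a.1.left * ν b.1.left
    rw [SemidirectProduct.mul_left, map_mul]
    have ha : (a : AGL1 R).right = 1 := (mem_aglN _).1 a.2
    rw [ha, map_one]
    rfl

theorem aglChar_apply (ν : Multiplicative R →* ℂˣ) (n : aglN (R := R)) :
    aglChar ν n = ν n.1.left := rfl

theorem agl_conj_left (x : AGL1 R) (m : Multiplicative R) :
    (x⁻¹ * SemidirectProduct.inl m * x).left = aglPhi R x.right⁻¹ m := by
  rw [SemidirectProduct.mul_left, SemidirectProduct.mul_left, SemidirectProduct.mul_right,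
    SemidirectProduct.inv_left, SemidirectProduct.inv_right, SemidirectProduct.left_inl,
    SemidirectProduct.right_inl, mul_one]
  rw [← map_mul, ← map_mul]
  congr 1
  rw [mul_comm, ← mul_assoc, mul_inv_cancel, one_mul]

theorem agl_main [Finite R] (ν : Multiplicative R →* ℂˣ)
    (hν : ∀ v : Rˣ, (∀ r : R, ν (Multiplicative.ofAdd ((v : R) * r)) = ν (Multiplicative.ofAdd r)) →
      v = 1) :
    ∃ (_ : Fintype (AGL1 R)), IsSolvable (AGL1 R) ∧
      Nat.card (AGL1 R) = Nat.card R * Nat.card Rˣ ∧
      ∃ χ : AGL1 R → ℂ, Cfsg.IsIrrCharacter (AGL1 R) χ ∧ χ 1 = (Nat.card Rˣ : ℂ) := by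
  classical
  haveI : Finite (AGL1 R) := Finite.of_equiv _ (SemidirectProduct.equivProd).symm
  letI : Fintype (AGL1 R) := Fintype.ofFinite _
  refine ⟨inferInstance, ?_, ?_, ?_⟩
  · exact solvable_of_ker_le_range (SemidirectProduct.inl : Multiplicative R →* AGL1 R)
      (SemidirectProduct.rightHom : AGL1 R →* Rˣ)
      (le_of_eq SemidirectProduct.range_inl_eq_ker_rightHom.symm)
  · rw [SemidirectProduct.card]
    rfl
  · have key := irr_ind_of_hom (aglN (R := R)) (aglChar ν) (by
      intro x hx
      rw [mem_aglN]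
      have h1 : x.right⁻¹ = 1 := by
        apply hν
        intro r
        have hmem : (SemidirectProduct.inl (Multiplicative.ofAdd r) : AGL1 R) ∈ aglN (R := R) := by
          rw [mem_aglN]
          exact SemidirectProduct.right_inl _
        have hmem2 : x⁻¹ * (SemidirectProduct.inl (Multiplicative.ofAdd r) : AGL1 R) * x ∈
            aglN (R := R) := by
          rw [mem_aglN]
          simp
        have h2 := hx ⟨_, hmem⟩ hmem2
        rw [aglChar_apply, aglChar_apply] at h2
        simp only [] at h2
        rw [agl_conj_left, SemidirectProduct.left_inl, aglPhi_apply] at h2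
        exact h2
      exact inv_eq_one.mp h1)
    refine ⟨_, key.1, ?_⟩
    rw [key.2]
    congr 1
    rw [Subgroup.index_ker, MonoidHom.range_eq_top.mpr SemidirectProduct.rightHom_surjective]
    exact Nat.card_congr (Subgroup.topEquiv).toEquiv

end AGL

section Concrete

/-- The additive character `(x, y) ↦ ψ x * e(y / 18)` of `𝔽₈ × ℤ/18`. -/
noncomputable def nuAdd : AddChar (GaloisField 2 3 × ZMod 18) ℂ where
  toFun p := AddChar.FiniteField.primitiveChar_to_Complex (GaloisField 2 3) p.1 * ZMod.stdAddChar p.2
  map_zero_eq_one' := by simp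
  map_add_eq_mul' a b := by
    simp only [Prod.fst_add, Prod.snd_add, AddChar.map_add_eq_mul]
    ring

theorem nuAdd_apply (p : GaloisField 2 3 × ZMod 18) :
    nuAdd p = AddChar.FiniteField.primitiveChar_to_Complex (GaloisField 2 3) p.1 * ZMod.stdAddChar p.2 :=
  rfl

theorem nuAdd_stab (v : (GaloisField 2 3 × ZMod 18)ˣ)
    (hv : ∀ r : GaloisField 2 3 × ZMod 18, nuAdd ((v : GaloisField 2 3 × ZMod 18) * r) = nuAdd r) :
    v = 1 := by
  apply Units.ext
  apply Prod.ext
  · show (v : GaloisField 2 3 × ZMod 18).1 = 1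
    by_contra hne
    have hne' : (v : GaloisField 2 3 × ZMod 18).1 - 1 ≠ 0 := sub_ne_zero.mpr hne
    apply AddChar.FiniteField.primitiveChar_to_Complex_isPrimitive (GaloisField 2 3) hne'
    apply DFunLike.ext
    intro x
    rw [AddChar.mulShift_apply, AddChar.one_apply]
    have h1 := hv (x, 0)
    rw [nuAdd_apply, nuAdd_apply] at h1
    simp only [Prod.fst_mul, Prod.snd_mul, mul_zero, AddChar.map_zero_eq_one, mul_one] at h1
    have h2 : ((v : GaloisField 2 3 × ZMod 18).1 - 1) * x =
        (v : GaloisField 2 3 × ZMod 18).1 * x + (-x) := by ring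
    rw [h2, AddChar.map_add_eq_mul, h1, ← AddChar.map_add_eq_mul, add_neg_cancel,
      AddChar.map_zero_eq_one]
  · show (v : GaloisField 2 3 × ZMod 18).2 = 1
    have h1 := hv (0, 1)
    rw [nuAdd_apply, nuAdd_apply] at h1
    simp only [Prod.fst_mul, Prod.snd_mul, mul_zero, AddChar.map_zero_eq_one, mul_one,
      one_mul] at h1
    exact ZMod.injective_stdAddChar h1

theorem card_R : Nat.card (GaloisField 2 3 × ZMod 18) = 144 := by
  rw [Nat.card_prod, GaloisField.card 2 3 (by norm_num), Nat.card_zmod]
  norm_num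

theorem card_Ru : Nat.card (GaloisField 2 3 × ZMod 18)ˣ = 42 := by
  rw [Nat.card_congr (MulEquiv.prodUnits (M := GaloisField 2 3) (N := ZMod 18)).toEquiv,
    Nat.card_prod, Nat.card_units, GaloisField.card 2 3 (by norm_num),
    Nat.card_eq_fintype_card, ZMod.card_units_eq_totient]
  decide

/-- **[SOLV]** a solvable group of order 6048 with an irreducible character of degree 42. -/
theorem pkgSolv : Cfsg.Agent.Lib.Helper14.DG33.PkgSolv := by
  obtain ⟨inst, hsolv, hcard, χ, hχ, hχ1⟩ :=
    agl_main (R := GaloisField 2 3 × ZMod 18) (nuAdd.toMonoidHom).toHomUnits (by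
      intro v hv
      apply nuAdd_stab v
      intro r
      have h1 := congrArg Units.val (hv r)
      rw [MonoidHom.coe_toHomUnits, MonoidHom.coe_toHomUnits, AddChar.toMonoidHom_apply,
        AddChar.toMonoidHom_apply] at h1
      exact h1)
  refine ⟨AGL1 (GaloisField 2 3 × ZMod 18), inferInstance, inst, hsolv, ?_, χ, hχ, ?_⟩
  · rw [hcard, card_R, card_Ru]
  · rw [hχ1, card_Ru]
    norm_num

end Concrete

end Cfsg.Agent.Lib.Helper4.DG33
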